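import Mathlib
import Cfsg.Prelude.Def_Sz
import Cfsg.Agent.Eq.Def_Sz
import Cfsg.Agent.FreeGroupLaws.SL2

set_option autoImplicit false

/-!
No non-trivial word is a law in all large Suzuki groups: specialise lower unitriangular Suzuki
matrices with monomial parameters and compare degrees.
-/

namespace CfsgLib.FreeGroupLaws.Suz

open Matrix Polynomial

section Ring
variable {R : Type*} [CommRing R]

/-- The shape of a lower unitriangular Suzuki matrix. -/
def uMat (e : ℕ) (c d n : R) : Matrix (Fin 4) (Fin 4) R :=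
  !![1, 0, 0, 0; c, 1, 0, 0; d, c ^ e, 1, 0; n, d + c ^ (e + 1), c, 1]

/-- The antidiagonal matrix. -/
def wMat : Matrix (Fin 4) (Fin 4) R :=
  !![0, 0, 0, 1; 0, 0, 1, 0; 0, 1, 0, 0; 1, 0, 0, 0]

/-- Second parameter of `U(a,0)` (`b = false`) or of its inverse (`b = true`). -/
def single2 (e : ℕ) (a : R) (b : Bool) : R := if b then a ^ (e + 1) else 0

/-- `U(a,0)` or its inverse. -/
def single (e : ℕ) (a : R) (b : Bool) : Matrix (Fin 4) (Fin 4) R :=
  uMat e a (single2 e a b) (a ^ (e + 2))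

/-- Product of two of them. -/
def pairU (e : ℕ) (a c : R) (bA bC : Bool) : Matrix (Fin 4) (Fin 4) R :=
  uMat e (a + c) (single2 e a bA + single2 e c bC + a ^ e * c)
    (a ^ (e + 2) + c ^ (e + 2) + (if bA then 0 else a ^ (e + 1) * c) +
      (if bC then a * c ^ (e + 1) else 0))

lemma single_mul_single (h2 : (2 : R) = 0) (e : ℕ) (a c : R) (bA bC : Bool)
    (hadd : (a + c) ^ e = a ^ e + c ^ e) :
    single e a bA * single e c bC = pairU e a c bA bC := by
  have hadd' : (a + c) ^ (e + 1) = (a ^ e + c ^ e) * (a + c) := by rw [pow_succ, hadd]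
  ext i j
  fin_cases i <;> fin_cases j <;> cases bA <;> cases bC <;>
    simp [single, pairU, uMat, single2, Matrix.mul_apply, Fin.sum_univ_four, hadd, hadd'] <;>
    ring_nf <;> simp [h2]

lemma single_mul_inv (h2 : (2 : R) = 0) (e : ℕ) (he : e ≠ 0) (a : R) :
    single e a true * single e a false = 1 := by
  have haa : a + a = 0 := by linear_combination a * h2
  rw [single_mul_single h2 e a a true false
    (by rw [haa, zero_pow he]; linear_combination -(a ^ e) * h2)]
  ext i j
  fin_cases i <;> fin_cases j <;> simp [pairU, uMat, single2, haa, he, Matrix.one_apply] <;>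
    first
      | linear_combination (a ^ (e + 1)) * h2
      | linear_combination (a ^ (e + 2)) * h2

lemma wMat_mul_self : (wMat : Matrix (Fin 4) (Fin 4) R) * wMat = 1 := by
  ext i j
  fin_cases i <;> fin_cases j <;>
    simp [wMat, Matrix.mul_apply, Fin.sum_univ_four, Matrix.one_apply]

/-- Left exponent of a letter. -/
def expL (x : ℕ × Bool) : ℕ := if x.2 then 2 * x.1 + 1 else 2 * x.1 + 2

/-- Right exponent of a letter. -/
def expR (x : ℕ × Bool) : ℕ := if x.2 then 2 * x.1 + 2 else 2 * x.1 + 1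

/-- The matrix of a letter. -/
def letterMat (e : ℕ) (x : ℕ × Bool) (t : R) : Matrix (Fin 4) (Fin 4) R :=
  single e (t ^ expL x) (!x.2) * wMat * single e (t ^ expR x) (!x.2)

/-- The image of the first basis vector under a word. -/
def sVec (e : ℕ) : List (ℕ × Bool) → R → (Fin 4 → R)
  | [], _ => ![1, 0, 0, 0]
  | x :: L, t => letterMat e x t *ᵥ sVec e L t

/-- Degree budget of a word. -/
def budget : List (ℕ × Bool) → ℕ
  | [] => 0
  | x :: L => expL x + expR x + budget L

lemma sVec_hom {S : Type*} [CommRing S] (φ : R →+* S) (e : ℕ) (L : List (ℕ × Bool)) (t : R) :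
    sVec e L (φ t) = fun i => φ (sVec e L t i) := by
  induction L with
  | nil => ext i; fin_cases i <;> simp [sVec]
  | cons x L ih =>
    ext i
    have hm : letterMat e x (φ t) = (letterMat e x t).map φ := by
      rw [letterMat, letterMat, Matrix.map_mul, Matrix.map_mul]
      congr 1
      congr 1
      · ext i j
        fin_cases i <;> fin_cases j <;> cases x.2 <;> simp [single, uMat, single2]
      · ext i j
        fin_cases i <;> fin_cases j <;> simp [wMat]
      · ext i j
        fin_cases i <;> fin_cases j <;> cases x.2 <;> simp [single, uMat, single2]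
    rw [sVec, sVec, hm, ih, RingHom.map_mulVec]
    rfl

end Ring

section Degree
variable {F : Type*} [Field F]

/-- The first coordinate dominates in degree. -/
def Dom (v : Fin 4 → F[X]) : Prop := v 0 ≠ 0 ∧ ∀ i, (v i).natDegree ≤ (v 0).natDegree

lemma dom_step (e : ℕ) (c d n : F[X]) (M : ℕ) (hM : 0 < M) (hn : n.natDegree = (e + 2) * M)
    (hc : c.natDegree ≤ M) (hd : d.natDegree ≤ (e + 1) * M) (v : Fin 4 → F[X]) (hv : Dom v) :
    Dom (wMat *ᵥ (uMat e c d n *ᵥ v)) ∧
      ((wMat *ᵥ (uMat e c d n *ᵥ v)) 0).natDegree = (e + 2) * M + (v 0).natDegree := by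
  obtain ⟨h0, hle⟩ := hv
  set D := (v 0).natDegree
  have hn0 : n ≠ 0 := fun h => by
    rw [h, natDegree_zero] at hn
    exact (Nat.mul_ne_zero (Nat.succ_ne_zero _) hM.ne') hn.symm
  have h1 : M < (e + 2) * M := lt_mul_of_one_lt_left hM (by omega)
  have hexp : (e + 1) * M < (e + 2) * M := Nat.mul_lt_mul_of_pos_right (by omega) hM
  have hce : (c ^ e).natDegree ≤ (e + 1) * M := natDegree_pow_le.trans
    ((Nat.mul_le_mul_left e hc).trans (Nat.mul_le_mul_right M (by omega)))
  have hce1 : (c ^ (e + 1)).natDegree ≤ (e + 1) * M :=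
    natDegree_pow_le.trans (Nat.mul_le_mul_left _ hc)
  have hu : (d + c ^ (e + 1)).natDegree ≤ (e + 1) * M :=
    (natDegree_add_le _ _).trans (max_le hd hce1)
  have hmain : (n * v 0).natDegree = (e + 2) * M + D := by rw [natDegree_mul hn0 h0, hn]
  have hr : ((d + c ^ (e + 1)) * v 1 + c * v 2 + v 3).natDegree < (n * v 0).natDegree := by
    rw [hmain]
    refine lt_of_le_of_lt (natDegree_add_le _ _) (max_lt (lt_of_le_of_lt (natDegree_add_le _ _)
      (max_lt ?_ ?_)) ?_)
    · exact lt_of_le_of_lt natDegree_mul_le (by have := hle 1; omega)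
    · exact lt_of_le_of_lt natDegree_mul_le (by have := hle 2; omega)
    · have := hle 3; omega
  have e3 : (uMat e c d n *ᵥ v) 3 = n * v 0 + ((d + c ^ (e + 1)) * v 1 + c * v 2 + v 3) := by
    simp [uMat, Matrix.mulVec, dotProduct, Fin.sum_univ_four]; ring
  have h3deg : ((uMat e c d n *ᵥ v) 3).natDegree = (e + 2) * M + D := by
    rw [e3, natDegree_add_eq_left_of_natDegree_lt hr, hmain]
  have hbound : ∀ i, ((uMat e c d n *ᵥ v) i).natDegree ≤ (e + 2) * M + D := by
    intro i
    fin_cases i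
    · have : (uMat e c d n *ᵥ v) 0 = v 0 := by
        simp [uMat, Matrix.mulVec, dotProduct, Fin.sum_univ_four]
      simp only [Fin.zero_eta, this]; omega
    · have : (uMat e c d n *ᵥ v) 1 = c * v 0 + v 1 := by
        simp [uMat, Matrix.mulVec, dotProduct, Fin.sum_univ_four]
      simp only [Fin.mk_one, this]
      refine (natDegree_add_le _ _).trans (max_le (natDegree_mul_le.trans ?_) ?_)
      · omega
      · have := hle 1; omega
    · have : (uMat e c d n *ᵥ v) 2 = d * v 0 + c ^ e * v 1 + v 2 := by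
        simp [uMat, Matrix.mulVec, dotProduct, Fin.sum_univ_four]
      simp only [Fin.reduceFinMk, this]
      refine (natDegree_add_le _ _).trans (max_le ((natDegree_add_le _ _).trans
        (max_le (natDegree_mul_le.trans ?_) (natDegree_mul_le.trans ?_))) ?_)
      · omega
      · have := hle 1; omega
      · have := hle 2; omega
    · simp only [Fin.reduceFinMk, h3deg, le_refl]
  have hw : ∀ (u : Fin 4 → F[X]) (i : Fin 4), ((wMat : Matrix (Fin 4) (Fin 4) F[X]) *ᵥ u) i = u i.rev := by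
    intro u i
    fin_cases i <;> simp [wMat, Matrix.mulVec, dotProduct, Fin.sum_univ_four, Fin.rev]
  refine ⟨⟨?_, fun i => ?_⟩, ?_⟩
  · rw [hw]
    intro h
    change (uMat e c d n *ᵥ v) 3 = 0 at h
    rw [h, natDegree_zero] at h3deg
    omega
  · rw [hw, hw]
    change _ ≤ ((uMat e c d n *ᵥ v) 3).natDegree
    rw [h3deg]; exact hbound _
  · rw [hw]; exact h3deg

lemma natDegree_single2 (e A : ℕ) (b : Bool) :
    (single2 e ((X : F[X]) ^ A) b).natDegree ≤ (e + 1) * A := by
  cases b <;> simp [single2, ← pow_mul, mul_comm]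

lemma natDegree_pair_n (e A C : ℕ) (h : A ≠ C) (bA bC : Bool) :
    ((X : F[X]) ^ A) ^ (e + 2) + (X ^ C) ^ (e + 2) +
        (if bA then 0 else (X ^ A) ^ (e + 1) * X ^ C) +
        (if bC then X ^ A * (X ^ C) ^ (e + 1) else 0) ≠ 0 ∧
    (((X : F[X]) ^ A) ^ (e + 2) + (X ^ C) ^ (e + 2) +
        (if bA then 0 else (X ^ A) ^ (e + 1) * X ^ C) +
        (if bC then X ^ A * (X ^ C) ^ (e + 1) else 0)).natDegree = (e + 2) * max A C := by
  simp only [← pow_mul, ← pow_add]
  set D := (e + 2) * max A C with hD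
  have small : ∀ k, k < D → ((X : F[X]) ^ k).coeff D = 0 := fun k hk => by
    simp [coeff_X_pow, hk.ne']
  have hcoef : ((X : F[X]) ^ (A * (e + 2)) + X ^ (C * (e + 2)) +
      (if bA then 0 else X ^ (A * (e + 1) + C)) +
      (if bC then X ^ (A + C * (e + 1)) else 0)).coeff D = 1 := by
    rcases Nat.lt_or_gt_of_ne h with hlt | hlt
    · have hmax : max A C = C := max_eq_right hlt.le
      have he1 : A * (e + 1) + C < D := by
        rw [hD, hmax]; nlinarith [Nat.zero_le e]
      have he2 : A + C * (e + 1) < D := by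
        rw [hD, hmax]; nlinarith [Nat.zero_le e]
      have he3 : A * (e + 2) < D := by rw [hD, hmax]; nlinarith [Nat.zero_le e]
      have he4 : C * (e + 2) = D := by rw [hD, hmax, mul_comm]
      cases bA <;> cases bC <;> simp [small _ he1, small _ he2, small _ he3, he4]
    · have hmax : max A C = A := max_eq_left hlt.le
      have he1 : A * (e + 1) + C < D := by
        rw [hD, hmax]; nlinarith [Nat.zero_le e]
      have he2 : A + C * (e + 1) < D := by
        rw [hD, hmax]; nlinarith [Nat.zero_le e]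
      have he3 : C * (e + 2) < D := by rw [hD, hmax]; nlinarith [Nat.zero_le e]
      have he4 : A * (e + 2) = D := by rw [hD, hmax, mul_comm]
      cases bA <;> cases bC <;> simp [small _ he1, small _ he2, small _ he3, he4]
  refine ⟨fun h0 => by simp [h0] at hcoef, le_antisymm ?_
    (le_natDegree_of_ne_zero (by rw [hcoef]; exact one_ne_zero))⟩
  have hA : A ≤ max A C := le_max_left _ _
  have hC : C ≤ max A C := le_max_right _ _
  refine (natDegree_add_le _ _).trans (max_le ((natDegree_add_le _ _).trans (max_le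
    ((natDegree_add_le _ _).trans (max_le ?_ ?_)) ?_)) ?_)
  · rw [natDegree_X_pow, hD]; nlinarith
  · rw [natDegree_X_pow, hD]; nlinarith
  · split_ifs
    · simp
    · rw [natDegree_X_pow, hD]; nlinarith
  · split_ifs
    · rw [natDegree_X_pow, hD]; nlinarith
    · simp

lemma natDegree_pair_d (e A C : ℕ) (bA bC : Bool) :
    (single2 e ((X : F[X]) ^ A) bA + single2 e (X ^ C) bC + (X ^ A) ^ e * X ^ C).natDegree
      ≤ (e + 1) * max A C := by
  have hA : A ≤ max A C := le_max_left _ _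
  have hC : C ≤ max A C := le_max_right _ _
  refine (natDegree_add_le _ _).trans (max_le ((natDegree_add_le _ _).trans (max_le ?_ ?_)) ?_)
  · exact (natDegree_single2 e A bA).trans (Nat.mul_le_mul_left _ hA)
  · exact (natDegree_single2 e C bC).trans (Nat.mul_le_mul_left _ hC)
  · rw [← pow_mul, ← pow_add, natDegree_X_pow]; nlinarith

lemma sVec_shape [CharP F 2] (k : ℕ) :
    ∀ (L : List (ℕ × Bool)) (x : ℕ × Bool), FreeGroup.IsReduced (x :: L) →
    ∃ v : Fin 4 → F[X], sVec (2 ^ k) (x :: L) (X : F[X]) =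
        single (2 ^ k) ((X : F[X]) ^ expL x) (!x.2) *ᵥ v ∧ Dom v ∧
      (v 0).natDegree + (2 ^ k + 2) * expL x ≤ (2 ^ k + 2) * budget (x :: L) := by
  set e := 2 ^ k with he
  have h2 : (2 : F[X]) = 0 := CharTwo.two_eq_zero
  intro L
  induction L with
  | nil =>
    intro x _
    have hpos : 0 < expR x := by rcases x with ⟨i, b⟩; cases b <;> simp [expR]
    obtain ⟨hdom, hdeg⟩ := dom_step (F := F) e (X ^ expR x) (single2 e (X ^ expR x) (!x.2))
      ((X ^ expR x) ^ (e + 2)) (expR x) hpos (by rw [← pow_mul, natDegree_X_pow, mul_comm])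
      (natDegree_X_pow_le _) (natDegree_single2 e _ _) ![1, 0, 0, 0]
      ⟨by simp, fun i => by fin_cases i <;> simp⟩
    refine ⟨_, ?_, hdom, ?_⟩
    · rw [sVec, sVec, letterMat, ← Matrix.mulVec_mulVec, ← Matrix.mulVec_mulVec]
      rfl
    · rw [hdeg]
      simp [budget, mul_add]
      omega
  | cons y L ih =>
    intro x hx
    rw [FreeGroup.isReduced_cons_cons] at hx
    obtain ⟨v, hv, hdom, hbud⟩ := ih y hx.2
    have hne : expR x ≠ expL y := by
      rcases x with ⟨i, b⟩
      rcases y with ⟨j, c⟩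
      cases b <;> cases c <;> simp [expL, expR] <;> first
        | omega
        | (intro hij; exact absurd (hx.1 hij) (by simp))
    obtain ⟨hn0, hn⟩ := natDegree_pair_n (F := F) e (expR x) (expL y) hne (!x.2) (!y.2)
    have hpos : 0 < max (expR x) (expL y) := by omega
    obtain ⟨hdom', hdeg'⟩ := dom_step (F := F) e (X ^ expR x + X ^ expL y) _ _
      (max (expR x) (expL y)) hpos hn
      ((natDegree_add_le _ _).trans (by simp))
      (natDegree_pair_d e (expR x) (expL y) (!x.2) (!y.2)) v hdom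
    refine ⟨_, ?_, hdom', ?_⟩
    · rw [sVec, hv, letterMat, ← Matrix.mulVec_mulVec, ← Matrix.mulVec_mulVec]
      congr 2
      rw [Matrix.mulVec_mulVec, single_mul_single h2 e _ _ _ _ (add_pow_char_pow _ _ 2 k)]
      rfl
    · rw [hdeg']
      have hb : budget (x :: y :: L) = expL x + expR x + budget (y :: L) := rfl
      rw [hb, mul_add, mul_add]
      have : (e + 2) * max (expR x) (expL y) ≤ (e + 2) * expR x + (e + 2) * expL y := by
        rw [← mul_add]; exact Nat.mul_le_mul_left _ (by omega)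
      omega

lemma sVec_last_ne_zero [CharP F 2] (k : ℕ) (L : List (ℕ × Bool)) (hL : FreeGroup.IsReduced L)
    (hne : L ≠ []) :
    sVec (2 ^ k) L (X : F[X]) 3 ≠ 0 ∧
      (sVec (2 ^ k) L (X : F[X]) 3).natDegree ≤ (2 ^ k + 2) * budget L := by
  obtain ⟨x, L, rfl⟩ := List.exists_cons_of_ne_nil hne
  obtain ⟨v, hv, hdom, hbud⟩ := sVec_shape (F := F) k L x hL
  have hpos : 0 < expL x := by rcases x with ⟨i, b⟩; cases b <;> simp [expL]
  obtain ⟨hdom', hdeg'⟩ := dom_step (F := F) (2 ^ k) (X ^ expL x) (single2 (2 ^ k) (X ^ expL x) (!x.2))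
      ((X ^ expL x) ^ (2 ^ k + 2)) (expL x) hpos (by rw [← pow_mul, natDegree_X_pow, mul_comm])
      (natDegree_X_pow_le _) (natDegree_single2 _ _ _) v hdom
  have h3 : sVec (2 ^ k) (x :: L) (X : F[X]) 3 =
      ((wMat : Matrix (Fin 4) (Fin 4) F[X]) *ᵥ sVec (2 ^ k) (x :: L) (X : F[X])) 0 := by
    simp [wMat, Matrix.mulVec, dotProduct, Fin.sum_univ_four]
  rw [h3, hv]
  exact ⟨hdom'.1, le_of_eq_of_le hdeg' (by omega)⟩

end Degree

section Group
variable {F : Type*} [Field F]

lemma single_mem_generators (e : ℕ) (a : F) (b : Bool) (h2 : (2 : F) = 0)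
    (hee : ∀ x : F, (x ^ e) ^ e = x ^ 2) (hadd : ∀ x y : F, (x + y) ^ e = x ^ e + y ^ e)
    (g : GL (Fin 4) F) (hg : (g : Matrix (Fin 4) (Fin 4) F) = single e a b) (he : e ≠ 0) :
    g ∈ Cfsg.Lie.Sp4 F ∧ Cfsg.Lie.star4 (g : Matrix (Fin 4) (Fin 4) F) =
      (g : Matrix (Fin 4) (Fin 4) F).map (fun x => x ^ e) := by
  refine ⟨fun u v => ?_, ?_⟩
  · simp only [Units.coeHom_apply, hg, single, uMat, Cfsg.Lie.altForm4, Matrix.mulVec, dotProduct,
      Fin.sum_univ_four]
    simp
    linear_combination (u 0 * v 0 * (a ^ (e + 2) + a * single2 e a b) +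
      (u 0 * v 1 + u 1 * v 0) * (single2 e a b + a * a ^ e) +
      (u 0 * v 2 + u 2 * v 0) * a + u 1 * v 1 * a ^ e) * h2
  · rw [hg]
    have h1 : (a ^ (e + 1)) ^ e = a ^ 2 * a ^ e := by rw [pow_succ, mul_pow, hee]
    have h22 : (a ^ (e + 2)) ^ e = a ^ 2 * (a ^ e) ^ 2 := by
      rw [pow_add, mul_pow, hee, ← pow_mul, ← pow_mul, mul_comm e 2]
    have : CharP F 2 := CharTwo.of_one_ne_zero_of_two_eq_zero one_ne_zero h2
    have h3 : (3 : F) = 1 := by linear_combination h2
    ext i j
    fin_cases i <;> fin_cases j <;> cases b <;>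
      simp [single, single2, uMat, Cfsg.Lie.star4, Cfsg.Lie.pairOf, hee, h1, h22, hadd, he,
        CharTwo.sub_eq_add] <;>
      ring_nf <;> simp [h2, h3] <;> ring

lemma wMat_mem_generators (e : ℕ) (h2 : (2 : F) = 0) (he : e ≠ 0) (g : GL (Fin 4) F)
    (hg : (g : Matrix (Fin 4) (Fin 4) F) = wMat) :
    g ∈ Cfsg.Lie.Sp4 F ∧ Cfsg.Lie.star4 (g : Matrix (Fin 4) (Fin 4) F) =
      (g : Matrix (Fin 4) (Fin 4) F).map (fun x => x ^ e) := by
  refine ⟨fun u v => ?_, ?_⟩
  · simp only [Units.coeHom_apply, hg, wMat, Cfsg.Lie.altForm4, Matrix.mulVec, dotProduct,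
      Fin.sum_univ_four]
    simp
    ring
  · rw [hg]
    ext i j
    fin_cases i <;> fin_cases j <;>
      simp [wMat, Cfsg.Lie.star4, Cfsg.Lie.pairOf, he] <;>
      first
        | linear_combination (-1 : F) * h2
        | linear_combination h2

lemma exists_value_ne_one [Fintype F] (w : FreeGroup ℕ) (hw : w ≠ 1) (m : ℕ)
    (hm : budget w.toWord + 1 ≤ m) (hF : Fintype.card F = 2 ^ (2 * m + 1)) :
    ∃ f : ℕ → ↥(Cfsg.Lie.Sz F (2 ^ (m + 1))), FreeGroup.lift f w ≠ 1 := by
  classical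
  obtain ⟨p, hp⟩ := CharP.exists F
  obtain ⟨n, hpr, hpn⟩ := FiniteField.card F p
  have hp2 : p = 2 := by
    have h : 2 ^ (2 * m + 1) = p ^ (n : ℕ) := hF ▸ hpn
    exact ((Nat.prime_dvd_prime_iff_eq Nat.prime_two hpr).mp
      (Nat.prime_two.dvd_of_dvd_pow (h ▸ dvd_pow_self 2 (by omega)))).symm
  subst hp2
  set e := 2 ^ (m + 1) with he
  have h2 : (2 : F) = 0 := CharTwo.two_eq_zero
  have hee : ∀ x : F, (x ^ e) ^ e = x ^ 2 := by
    intro x
    rw [← pow_mul, he, ← pow_add, show m + 1 + (m + 1) = 2 * m + 1 + 1 by ring, pow_succ, pow_mul,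
      ← hF, FiniteField.pow_card]
  have hadd : ∀ x y : F, (x + y) ^ e = x ^ e + y ^ e := fun x y => add_pow_char_pow x y 2 (m + 1)
  have he0 : e ≠ 0 := pow_ne_zero _ two_ne_zero
  set L := w.toWord with hL
  obtain ⟨hne, hdeg⟩ := sVec_last_ne_zero (F := F) (m + 1) L FreeGroup.isReduced_toWord
    (fun h => hw (FreeGroup.toWord_eq_nil_iff.mp h))
  obtain ⟨a, ha⟩ : ∃ a : F, (sVec e L (X : F[X]) 3).eval a ≠ 0 := by
    by_contra h
    push Not at h
    refine hne (eq_zero_of_natDegree_lt_card_of_eval_eq_zero' _ Finset.univ (fun a _ => h a) ?_)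
    rw [Finset.card_univ, hF]
    refine lt_of_le_of_lt hdeg ?_
    have h3 : m ≤ 2 ^ (m - 1) := by
      have := Nat.lt_two_pow_self (n := m - 1); omega
    have h4 : 2 ^ (m + 1) + 2 ≤ 2 ^ (m + 2) := by
      have : 2 ≤ 2 ^ (m + 1) := Nat.le_self_pow (by omega) 2
      rw [pow_succ 2 (m + 1)]; omega
    calc (2 ^ (m + 1) + 2) * budget L ≤ 2 ^ (m + 2) * budget L := Nat.mul_le_mul_right _ h4
      _ < 2 ^ (m + 2) * 2 ^ (m - 1) := Nat.mul_lt_mul_of_pos_left (by omega) (pow_pos two_pos _)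
      _ = 2 ^ (2 * m + 1) := by rw [← pow_add]; congr 1; omega
  let U : F → GL (Fin 4) F := fun a =>
    ⟨single e a false, single e a true,
      mul_eq_one_comm.mp (single_mul_inv h2 e he0 a), single_mul_inv h2 e he0 a⟩
  let W : GL (Fin 4) F := ⟨wMat, wMat, wMat_mul_self, wMat_mul_self⟩
  have hU : ∀ a, U a ∈ Cfsg.Lie.Sz F e := fun a => Subgroup.subset_closure
    (single_mem_generators e a false h2 hee hadd (U a) rfl he0)
  have hW : W ∈ Cfsg.Lie.Sz F e := Subgroup.subset_closure (wMat_mem_generators e h2 he0 W rfl)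
  refine ⟨fun i => ⟨U (a ^ (2 * i + 1)) * W * U (a ^ (2 * i + 2)),
    mul_mem (mul_mem (hU _) hW) (hU _)⟩, ?_⟩
  set f : ℕ → ↥(Cfsg.Lie.Sz F e) := fun i => ⟨U (a ^ (2 * i + 1)) * W * U (a ^ (2 * i + 2)),
    mul_mem (mul_mem (hU _) hW) (hU _)⟩ with hf
  intro h1
  let φ : ↥(Cfsg.Lie.Sz F e) →* Matrix (Fin 4) (Fin 4) F :=
    (Units.coeHom _).comp (Cfsg.Lie.Sz F e).subtype
  have hletter : ∀ x : ℕ × Bool, φ (cond x.2 (f x.1) (f x.1)⁻¹) = letterMat e x a := by
    rintro ⟨i, b⟩
    cases b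
    · change (((U (a ^ (2 * i + 1)) * W * U (a ^ (2 * i + 2)))⁻¹ : GL (Fin 4) F) :
        Matrix (Fin 4) (Fin 4) F) = _
      rw [_root_.mul_inv_rev, _root_.mul_inv_rev, ← mul_assoc]
      rfl
    · rfl
  have hprod : ∀ L : List (ℕ × Bool),
      φ ((L.map fun x => cond x.2 (f x.1) (f x.1)⁻¹).prod) *ᵥ ![1, 0, 0, 0] = sVec e L a := by
    intro L
    induction L with
    | nil => simp [sVec]
    | cons x L ih =>
      rw [List.map_cons, List.prod_cons, map_mul, ← Matrix.mulVec_mulVec, ih, hletter, sVec]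
  have hh := hprod L
  rw [← FreeGroup.lift_mk, show FreeGroup.mk L = w from FreeGroup.mk_toWord, h1, map_one,
    Matrix.one_mulVec] at hh
  have hh3 := congrFun hh 3
  have hev := sVec_hom (Polynomial.evalRingHom a) e L (X : F[X])
  rw [coe_evalRingHom, eval_X] at hev
  rw [hev] at hh3
  exact ha (by simpa using hh3.symm)

end Group

end CfsgLib.FreeGroupLaws.Suz
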